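import Cfsg.Agent.H691.L34.Def
import Cfsg.Agent.ClassicalGeometry.PSL2Basic

/-!
# S5917, part I: a Steinberg submodule has an invariant complement (helper118, row M4)
-/

set_option autoImplicit false
set_option linter.unusedSectionVars false

namespace Cfsg.Agent.H118.L34

open Matrix Cfsg.Agent.H691.L34

section Card

variable {F : Type} [Field F] [Fintype F]

theorem card_G3 (hF : Fintype.card F = 4) : Nat.card (G3 F) = 60480 := by
  have h := ClassicalGeometry.PSL2Basic.card_SL_mul (n := Fin 3) (F := F)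
  rw [Matrix.card_GL_field, Fin.prod_univ_three, hF] at h
  have h1 : Nat.card (G3 F) * 3 = 181440 := h
  omega

/-- the elements of `U` -/
def uel (p : F × F × F) : G3 F := ⟨!![1, p.1, p.2.1; 0, 1, p.2.2; 0, 0, 1], by simp [Matrix.det_fin_three]⟩

theorem uel_mem (p : F × F × F) : uel p ∈ UU F := by
  refine ⟨fun i => ?_, ?_, ?_, ?_⟩
  · fin_cases i <;> rfl
  · rfl
  · rfl
  · rfl

theorem card_UU (hF : Fintype.card F = 4) : Nat.card (UU F) = 64 := by
  have e : Function.Bijective (fun p : F × F × F => (⟨uel p, uel_mem p⟩ : UU F)) := by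
    constructor
    · intro p q h
      have h1 : (uel p).1 = (uel q).1 := congrArg Subtype.val (congrArg Subtype.val h)
      have h01 : p.1 = q.1 := congrFun (congrFun h1 0) 1
      have h02 : p.2.1 = q.2.1 := congrFun (congrFun h1 0) 2
      have h12 : p.2.2 = q.2.2 := congrFun (congrFun h1 1) 2
      exact Prod.ext h01 (Prod.ext h02 h12)
    · rintro ⟨g, hg, h10, h20, h21⟩
      refine ⟨(g.1 0 1, g.1 0 2, g.1 1 2), Subtype.ext (Subtype.ext ?_)⟩
      have h0 := hg 0
      have h1 := hg 1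
      have h2 := hg 2
      ext i j
      fin_cases i <;> fin_cases j
      · exact h0.symm
      · rfl
      · rfl
      · exact h10.symm
      · exact h1.symm
      · rfl
      · exact h20.symm
      · exact h21.symm
      · exact h2.symm
  rw [← Nat.card_congr (Equiv.ofBijective _ e), Nat.card_prod, Nat.card_prod, Nat.card_eq_fintype_card, hF]

end Card

/-- a 2-group has a nonzero fixed vector -/
theorem exists_fixed {G : Type*} [Group G] (hG : IsPGroup 2 G) {V : Type*} [AddCommGroup V]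
    [Module (ZMod 2) V] [Finite V] (ρ : Representation (ZMod 2) G V) {W : Submodule (ZMod 2) V}
    (hW : ∀ g, ∀ x ∈ W, ρ g x ∈ W) (h : W ≠ ⊥) : ∃ x ∈ W, x ≠ 0 ∧ ∀ g, ρ g x = x := by
  letI : MulAction G W :=
    { smul := fun g x => ⟨ρ g x, hW g x x.2⟩
      one_smul := fun x => Subtype.ext (by show ρ 1 (x : V) = x; rw [map_one]; rfl)
      mul_smul := fun a b x => Subtype.ext (by
        show ρ (a * b) (x : V) = ρ a (ρ b (x : V))
        rw [map_mul]; rfl) }
  have hs : ∀ (g : G) (x : W), ((g • x : W) : V) = ρ g x := fun g x => rfl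
  haveI : Nontrivial W := Submodule.nontrivial_iff_ne_bot.2 h
  have hd : 2 ∣ Nat.card W := by
    rw [Module.natCard_eq_pow_finrank (K := ZMod 2) (V := W), Nat.card_zmod]
    exact dvd_pow_self 2 (Module.finrank_pos (R := ZMod 2) (M := W)).ne'
  obtain ⟨b, hb, hne⟩ := hG.exists_fixed_point_of_prime_dvd_card_of_fixed_point W hd (a := (0 : W))
    (fun g => Subtype.ext (by rw [hs]; exact map_zero _))
  exact ⟨b, b.2, fun h0 => hne (Subtype.ext h0.symm), fun g => by rw [← hs, hb g]⟩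

section Compl

variable {F : Type} [Field F] [Fintype F] {V : Type} [AddCommGroup V] [Module (ZMod 2) V] [Module.Finite (ZMod 2) V]
  {ρ : Representation (ZMod 2) (G3 F) V}

/-- the regular representation of `U` -/
def reg (F : Type) [Field F] : Representation (ZMod 2) (UU F) (UU F → ZMod 2) where
  toFun u := LinearMap.funLeft (ZMod 2) (ZMod 2) fun x => u⁻¹ * x
  map_one' := by
    apply LinearMap.ext
    intro f
    funext x
    show f (1⁻¹ * x) = f x
    rw [inv_one, one_mul]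
  map_mul' a b := by
    apply LinearMap.ext
    intro f
    funext x
    show f ((a * b)⁻¹ * x) = f (b⁻¹ * (a⁻¹ * x))
    rw [_root_.mul_inv_rev, mul_assoc]

theorem reg_apply (u : UU F) (f : UU F → ZMod 2) (x : UU F) : reg F u f x = f (u⁻¹ * x) := rfl

variable (ρ) in
/-- the map from the regular module -/
noncomputable def Lm (w : V) : (UU F → ZMod 2) →ₗ[ZMod 2] V :=
  letI := Fintype.ofFinite (UU F)
  { toFun := fun f => ∑ u : UU F, f u • ρ (u : G3 F) w
    map_add' := fun f g => by simp [add_smul, Finset.sum_add_distrib]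
    map_smul' := fun c f => by simp [Finset.smul_sum, smul_smul] }

theorem Lm_apply [Fintype (UU F)] (w : V) (f : UU F → ZMod 2) : Lm ρ w f = ∑ u : UU F, f u • ρ (u : G3 F) w := by
  have : Fintype.ofFinite (UU F) = ‹Fintype (UU F)› := Subsingleton.elim _ _
  subst this
  rfl

theorem Lm_reg (w : V) (u : UU F) (f : UU F → ZMod 2) : Lm ρ w (reg F u f) = ρ (u : G3 F) (Lm ρ w f) := by
  let _ := Fintype.ofFinite (UU F)
  rw [Lm_apply, Lm_apply, map_sum]
  refine Fintype.sum_equiv (Equiv.mulLeft u⁻¹) _ _ fun x => ?_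
  rw [reg_apply, Equiv.coe_mulLeft, map_smul, ← Module.End.mul_apply, ← map_mul, Subgroup.coe_mul, Subgroup.coe_inv,
    mul_inv_cancel_left]

theorem Lm_one (w : V) : Lm ρ w (fun _ => 1) = Up ρ w := by
  let _ := Fintype.ofFinite (UU F)
  rw [Lm_apply]
  unfold Up
  rw [finsum_eq_sum_of_fintype]
  exact Finset.sum_congr rfl fun u _ => one_smul _ _

theorem isPGroup_UU (hF : Fintype.card F = 4) : IsPGroup 2 (UU F) :=
  IsPGroup.of_card (n := 6) (by rw [card_UU hF]; norm_num)

theorem Lm_inj (hF : Fintype.card F = 4) {w : V} (hw : Up ρ w ≠ 0) : LinearMap.ker (Lm ρ w) = ⊥ := by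
  by_contra hne
  obtain ⟨f, hf, hf0, hfix⟩ := exists_fixed (isPGroup_UU hF) (reg F) (W := LinearMap.ker (Lm ρ w))
    (fun g x hx => by
      rw [LinearMap.mem_ker] at hx ⊢
      rw [Lm_reg, hx, map_zero]) hne
  have hc : ∀ x, f x = f 1 := by
    intro x
    have h := congrFun (hfix x) x
    rw [reg_apply, inv_mul_cancel] at h
    exact h.symm
  have h1 : f 1 ≠ 0 := fun h0 => hf0 (funext fun x => (hc x).trans h0)
  have h2 : f 1 = 1 := by
    have := (by decide : ∀ a : ZMod 2, a ≠ 0 → a = 1)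
    exact this _ h1
  have h3 : f = fun _ => 1 := funext fun x => (hc x).trans h2
  rw [LinearMap.mem_ker, h3, Lm_one] at hf
  exact hw hf

theorem range_Lm (hF : Fintype.card F = 4) {W : Submodule (ZMod 2) V} (hW : Inv ρ W)
    (hd : Module.finrank (ZMod 2) W = 64) {w : V} (hwW : w ∈ W) (hw : Up ρ w ≠ 0) : LinearMap.range (Lm ρ w) = W := by
  letI := Fintype.ofFinite (UU F)
  apply Submodule.eq_of_le_of_finrank_eq
  · rintro _ ⟨f, rfl⟩
    rw [Lm_apply]
    exact Submodule.sum_mem _ fun u _ => W.smul_mem _ (hW _ _ hwW)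
  · rw [LinearMap.finrank_range_of_inj (LinearMap.ker_eq_bot.1 (Lm_inj hF hw)), Module.finrank_fintype_fun_eq_card,
      ← Nat.card_eq_fintype_card, card_UU hF, hd]

variable (ρ) in
/-- the `U`-projection -/
noncomputable def Pm (μ : V →ₗ[ZMod 2] ZMod 2) (w : V) : V →ₗ[ZMod 2] V :=
  letI := Fintype.ofFinite (UU F)
  ∑ u : UU F, (μ.comp (ρ (u : G3 F)⁻¹)).smulRight (ρ (u : G3 F) w)

theorem Pm_apply [Fintype (UU F)] (μ : V →ₗ[ZMod 2] ZMod 2) (w x : V) :
    Pm ρ μ w x = ∑ u : UU F, μ (ρ (u : G3 F)⁻¹ x) • ρ (u : G3 F) w := by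
  unfold Pm
  rw [LinearMap.sum_apply]
  have : Fintype.ofFinite (UU F) = ‹Fintype (UU F)› := Subsingleton.elim _ _
  rw [this]
  rfl

theorem Pm_equiv (μ : V →ₗ[ZMod 2] ZMod 2) (w x : V) (v : UU F) :
    Pm ρ μ w (ρ (v : G3 F) x) = ρ (v : G3 F) (Pm ρ μ w x) := by
  let _ := Fintype.ofFinite (UU F)
  rw [Pm_apply, Pm_apply, map_sum]
  refine Fintype.sum_equiv (Equiv.mulLeft v⁻¹) _ _ fun u => ?_
  rw [Equiv.coe_mulLeft, map_smul, ← Module.End.mul_apply, ← map_mul, ← Module.End.mul_apply, ← map_mul,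
    Subgroup.coe_mul, Subgroup.coe_inv, mul_inv_cancel_left, _root_.mul_inv_rev, inv_inv]

/-- **a Steinberg submodule has an invariant complement** -/
theorem st_compl (hF : Fintype.card F = 4) {W X : Submodule (ZMod 2) V} (hW : Simp ρ W) (h : Is64 ρ W) (hX : Inv ρ X)
    (hWX : W ≤ X) : ∃ C : Submodule (ZMod 2) V, Inv ρ C ∧ W ⊓ C = ⊥ ∧ W ⊔ C = X := by
  classical
  letI := Fintype.ofFinite (UU F)
  obtain ⟨hD, w, hwW, hw⟩ := h
  have hr := range_Lm hF hW.1 hD.1 hwW hw
  have hinj := LinearMap.ker_eq_bot.1 (Lm_inj hF hw)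
  -- the functional
  obtain ⟨N, hN⟩ := LinearMap.exists_leftInverse_of_injective (Lm ρ w) (Lm_inj hF hw)
  let μ : V →ₗ[ZMod 2] ZMod 2 := (LinearMap.proj (1 : UU F)).comp N
  have hμ : ∀ f, μ (Lm ρ w f) = f 1 := by
    intro f
    have h1 : N (Lm ρ w f) = f := LinearMap.congr_fun hN f
    show N (Lm ρ w f) 1 = f 1
    rw [h1]
  have hP : ∀ y ∈ W, Pm ρ μ w y = y := by
    intro y hy
    rw [← hr] at hy
    obtain ⟨f, rfl⟩ := hy
    rw [Pm_apply, Lm_apply]
    refine Finset.sum_congr rfl fun u _ => ?_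
    congr 1
    rw [← Lm_apply, ← Subgroup.coe_inv, ← Lm_reg, hμ, reg_apply, inv_inv, mul_one]
  have hPW : ∀ x, Pm ρ μ w x ∈ W := by
    intro x
    rw [Pm_apply]
    exact Submodule.sum_mem _ fun u _ => W.smul_mem _ (hW.1 _ _ hwW)
  -- the conjugates
  letI : Fintype (G3 F ⧸ UU F) := Fintype.ofFinite _
  let T : (G3 F ⧸ UU F) → V →ₗ[ZMod 2] V := fun q =>
    (ρ q.out).comp ((Pm ρ μ w).comp (ρ q.out⁻¹))
  have hT : ∀ (g : G3 F) (x : V), T (g : G3 F ⧸ UU F) x = ρ g (Pm ρ μ w (ρ g⁻¹ x)) := by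
    intro g x
    obtain ⟨u, hu⟩ := QuotientGroup.mk_out_eq_mul (UU F) g
    show ρ (Quotient.out (g : G3 F ⧸ UU F)) (Pm ρ μ w (ρ (Quotient.out (g : G3 F ⧸ UU F))⁻¹ x)) = _
    rw [hu, _root_.mul_inv_rev, map_mul ρ g, map_mul ρ (u : G3 F)⁻¹, Module.End.mul_apply, Module.End.mul_apply,
      ← Subgroup.coe_inv, Pm_equiv, ← Module.End.mul_apply (ρ (u : G3 F)), ← map_mul, Subgroup.coe_inv, mul_inv_cancel,
      map_one]
    rfl
  let π : V →ₗ[ZMod 2] V := ∑ q, T q
  have hπ : ∀ x, π x = ∑ q, T q x := fun x => LinearMap.sum_apply _ _ _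
  have hπg : ∀ (h : G3 F) x, π (ρ h x) = ρ h (π x) := by
    intro h x
    rw [hπ, hπ, map_sum]
    refine Fintype.sum_equiv (MulAction.toPerm h⁻¹) _ _ fun q => ?_
    induction q using QuotientGroup.induction_on with
    | H g =>
      have h1 : (MulAction.toPerm h⁻¹ : Equiv.Perm (G3 F ⧸ UU F)) (g : G3 F ⧸ UU F) = ((h⁻¹ * g : G3 F) : G3 F ⧸ UU F) :=
        rfl
      rw [h1, hT, hT, ← Module.End.mul_apply (ρ h), ← map_mul, mul_inv_cancel_left, _root_.mul_inv_rev, inv_inv,
        ← Module.End.mul_apply (ρ g⁻¹), ← map_mul]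
  have hπW : ∀ y ∈ W, π y = y := by
    intro y hy
    rw [hπ]
    have h1 : ∀ q : G3 F ⧸ UU F, T q y = y := by
      intro q
      induction q using QuotientGroup.induction_on with
      | H g => rw [hT, hP _ (hW.1 _ _ hy), ← Module.End.mul_apply, ← map_mul, mul_inv_cancel, map_one]; rfl
    rw [Finset.sum_congr rfl fun q _ => h1 q, Finset.sum_const, Finset.card_univ, ← Nat.cast_smul_eq_nsmul (ZMod 2)]
    have h2 : Fintype.card (G3 F ⧸ UU F) = 945 := by
      rw [← Nat.card_eq_fintype_card]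
      have h3 := (UU F).card_mul_index
      rw [card_UU hF, card_G3 hF] at h3
      change 64 * Nat.card (G3 F ⧸ UU F) = 60480 at h3
      omega
    rw [h2]
    have h4 : ((945 : ℕ) : ZMod 2) = 1 := by decide
    rw [h4, one_smul]
  have hπr : ∀ x, π x ∈ W := by
    intro x
    rw [hπ]
    refine Submodule.sum_mem _ fun q _ => ?_
    exact hW.1 _ _ (hPW _)
  refine ⟨LinearMap.ker π ⊓ X, fun g x hx => ?_, ?_, ?_⟩
  · rw [Submodule.mem_inf, LinearMap.mem_ker] at hx ⊢
    exact ⟨by rw [hπg, hx.1, map_zero], hX g x hx.2⟩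
  · rw [eq_bot_iff]
    intro x hx
    rw [Submodule.mem_inf, Submodule.mem_inf, LinearMap.mem_ker] at hx
    rw [Submodule.mem_bot, ← hπW x hx.1]
    exact hx.2.1
  · apply le_antisymm
    · exact sup_le hWX inf_le_right
    · intro x hx
      have h1 : x = π x + (x - π x) := by abel
      rw [h1]
      refine Submodule.add_mem_sup (hπr x) ?_
      rw [Submodule.mem_inf, LinearMap.mem_ker]
      exact ⟨by rw [map_sub, hπW _ (hπr x), sub_self], X.sub_mem hx (hWX (hπr x))⟩

end Compl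

end Cfsg.Agent.H118.L34
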